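import Mathlib
import Cfsg.Agent.H594.Cyclic
import Cfsg.Agent.S4445

/-!
# The Glauberman correspondence for a cyclic group of operators: assembly (helper594)
-/

set_option autoImplicit false
set_option linter.unusedSectionVars false
open Cfsg

namespace Cfsg.Agent.H594.Cyclic

open Cfsg.Agent.Characters.Core Cfsg.Agent.CharactersDeep.CosetAverage
open scoped ComplexConjugate

variable {Γ : Type*} [Group Γ] [Fintype Γ]

theorem normal_of_top {G S : Subgroup Γ} (hnorm : ∀ s ∈ S, ∀ g ∈ G, s * g * s⁻¹ ∈ G) (htop : G ⊔ S = ⊤) :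
    G.Normal := by
  rw [← Subgroup.normalizer_eq_top_iff, eq_top_iff, ← htop]
  refine sup_le Subgroup.le_normalizer ?_
  intro s hs
  rw [Subgroup.mem_normalizer_iff]
  intro g
  refine ⟨hnorm s hs g, fun hg => ?_⟩
  have := hnorm s⁻¹ (S.inv_mem hs) _ hg
  simpa [mul_assoc] using this

theorem index_eq {G S : Subgroup Γ} [G.Normal] (hcop : (Nat.card G).Coprime (Nat.card S)) (htop : G ⊔ S = ⊤) :
    G.index = Nat.card S := by
  rw [← Subgroup.relIndex_top_right, ← htop, sup_comm, Subgroup.relIndex_sup_right, Subgroup.relIndex]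
  have h1 : G.subgroupOf S = ⊥ := by
    rw [Subgroup.subgroupOf_eq_bot]
    exact Subgroup.disjoint_of_coprime_natCard hcop
  rw [h1, Subgroup.index_bot]

/-- orthogonality of the canonical extensions on the coset -/
theorem coset_orthogonal (G S : Subgroup Γ) [Fintype G] [G.Normal]
    (hcop : (Nat.card G).Coprime (Nat.card S)) (C : Subgroup Γ) [Fintype C]
    (hC : C = G ⊓ Subgroup.centralizer (S : Set Γ)) {s : Γ} (hs : Subgroup.zpowers s = S)
    {χ χ' : G → ℂ} (hχ : IsIrrCharacter G χ) (hχ' : IsIrrCharacter G χ') {χh χh' : Γ → ℂ}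
    (hχh : IsIrrCharacter Γ χh) (hχh' : IsIrrCharacter Γ χh') (h1 : ∀ g : G, χh g = χ g)
    (h2 : ∀ g : G, χh' g = χ' g) (hne : χ ≠ χ') :
    classInner (fun c : C => χh ((c : Γ) * s)) (fun c : C => χh' ((c : Γ) * s)) = 0 := by
  have e1 : (fun g : G => χh g) = χ := funext h1
  have e2 : (fun g : G => χh' g) = χ' := funext h2
  have h3 := CosetSum.coset_sum (G := G) (S := S) (C := C)
    (fun t _ g hg => ‹G.Normal›.conj_mem g hg t) hcop hC hs (fun x => χh x * conj (χh' x)) (by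
      intro x _ y
      simp only [isIrr_isClassFunction hχh y x, isIrr_isClassFunction hχh' y x])
  have h4 : classInner (fun g : G => χh g) (fun g : G => χh' g) = 0 := by
    rw [e1, e2]
    exact classInner_irr_ne hχ hχ' hne
  rcases cosetAverage_dichotomy G χh' hχh' (by rw [e2]; exact hχ') χh hχh _ rfl with h | h
  · have h5 := congrFun h.2 s
    refine Eq.trans ?_ (h3.symm.trans h5)
    rfl
  · exact absurd h4 h.1

theorem exists_canonical (G S : Subgroup Γ) [G.Normal] (hnorm : ∀ s ∈ S, ∀ g ∈ G, s * g * s⁻¹ ∈ G)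
    (hcop : (Nat.card G).Coprime (Nat.card S)) (hidx : G.index = Nat.card S) (htop : G ⊔ S = ⊤)
    (χ : IrrCharacter G)
    (hinv : ∀ s ∈ S, ∀ g g' : G, (g' : Γ) = s * g * s⁻¹ → (χ : G → ℂ) g' = (χ : G → ℂ) g) :
    ∃ χh : IrrCharacter Γ, (∀ g : G, (χh : Γ → ℂ) g = (χ : G → ℂ) g) ∧
      (detOrder (χh : Γ → ℂ)).Coprime (Nat.card S) := by
  obtain ⟨d, hd0, hd⟩ := isIrr_apply_one χ.2
  have hcop' : Nat.Coprime G.index (detOrder (χ : G → ℂ) * d) := by
    rw [hidx]
    apply Nat.Coprime.mul_right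
    · exact (Nat.Coprime.coprime_dvd_left (detOrder_dvd χ.2) hcop).symm
    · exact (Nat.Coprime.coprime_dvd_left (degree_dvd χ.2 hd) hcop).symm
  let T : Subgroup Γ :=
    { carrier := {x | ∀ g g' : G, (g' : Γ) = x * g * x⁻¹ → (χ : G → ℂ) g' = (χ : G → ℂ) g}
      one_mem' := by
        intro g g' h
        have : g' = g := Subtype.ext (by rw [h]; group)
        rw [this]
      mul_mem' := by
        intro a b ha hb g g' h
        have h1 := hb g ⟨b * g * b⁻¹, ‹G.Normal›.conj_mem g g.2 b⟩ rfl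
        rw [← h1]
        apply ha
        rw [h]
        show a * b * g * (a * b)⁻¹ = a * (b * g * b⁻¹) * a⁻¹
        group
      inv_mem' := by
        intro a ha g g' h
        refine (ha g' g ?_).symm
        rw [h]; group }
  have hT : T = ⊤ := by
    rw [eq_top_iff, ← htop]
    refine sup_le ?_ ?_
    · intro x hx g g' h
      have h1 := isIrr_isClassFunction χ.2 g ⟨x, hx⟩
      have h2 : g' = ⟨x, hx⟩ * g * (⟨x, hx⟩ : G)⁻¹ := Subtype.ext h
      rw [h2]
      exact h1
    · intro x hx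
      exact hinv x hx
  obtain ⟨χh, ⟨h1, h2, h3⟩, -⟩ := Cfsg.Agent.S0867.result G (χ : G → ℂ) χ.2 (by
    intro g n
    have hg : g ∈ T := hT ▸ Subgroup.mem_top g
    exact hg n _ rfl) d hd hcop'
  refine ⟨⟨χh, h1⟩, h2, ?_⟩
  show (detOrder χh).Coprime _
  rw [h3]
  exact Nat.Coprime.coprime_dvd_left (detOrder_dvd χ.2) hcop

/-- the sign and the character are determined -/
theorem sign_unique {C : Type*} [Group C] {β β' : IrrCharacter C} {ε ε' : ℤ}
    (hε : ε = 1 ∨ ε = -1) (hε' : ε' = 1 ∨ ε' = -1) (h : ∀ c, (ε : ℂ) * (β : C → ℂ) c = (ε' : ℂ) * (β' : C → ℂ) c) :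
    β = β' ∧ ε = ε' := by
  obtain ⟨n, hn, h1⟩ := isIrr_apply_one β.2
  obtain ⟨m, hm, h2⟩ := isIrr_apply_one β'.2
  have h3 := h 1
  rw [h1, h2] at h3
  have h4 : ε * (n : ℤ) = ε' * (m : ℤ) := by exact_mod_cast h3
  have h5 : ε = ε' := by
    rcases hε with rfl | rfl <;> rcases hε' with rfl | rfl <;> first | rfl | (exfalso; omega)
  subst h5
  refine ⟨Subtype.ext (funext fun c => ?_), rfl⟩
  have h6 := h c
  have h7 : (ε : ℂ) ≠ 0 := by rcases hε with rfl | rfl <;> norm_num
  exact mul_left_cancel₀ h7 h6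

end Cfsg.Agent.H594.Cyclic
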