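import Mathlib

/-!
# Linear maps with scalar square are monomial in some basis (helper594, S3026)

* `exists_perm_equiv` : `T² = 1`, characteristic not two: `± T` is a permutation matrix in some basis;
* `exists_mono_equiv` : `T² = l`, `l` a nonsquare: `T` is monomial in some basis.
-/

set_option autoImplicit false

namespace Cfsg.Agent.H594.Unf

open Module Polynomial

variable {F : Type*} [Field F] {V : Type*} [AddCommGroup V] [Module F V] [FiniteDimensional F V]

/-- `T² = 1`, first case: the fixed space is not smaller than the `-1`-space -/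
theorem exists_perm_equiv_aux (h2 : (2 : F) ≠ 0) (T : V →ₗ[F] V) (hT : ∀ v, T (T v) = v)
    (hle : finrank F (LinearMap.ker (T + LinearMap.id)) ≤ finrank F (LinearMap.ker (T - LinearMap.id))) {n : ℕ}
    (hn : finrank F V = n) :
    ∃ (e : V ≃ₗ[F] (Fin n → F)) (σ : Equiv.Perm (Fin n)), ∀ v i, e (T v) i = e v (σ i) := by
  classical
  obtain ⟨E₁, hE₁⟩ : ∃ E : Submodule F V, E = LinearMap.ker (T + LinearMap.id) := ⟨_, rfl⟩
  obtain ⟨E₂, hE₂⟩ : ∃ E : Submodule F V, E = LinearMap.ker (T - LinearMap.id) := ⟨_, rfl⟩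
  have m1 : ∀ v, v ∈ E₁ ↔ T v = -v := by
    intro v
    rw [hE₁, LinearMap.mem_ker, LinearMap.add_apply, LinearMap.id_apply, add_eq_zero_iff_eq_neg]
  have m2 : ∀ v, v ∈ E₂ ↔ T v = v := by
    intro v
    rw [hE₂, LinearMap.mem_ker, LinearMap.sub_apply, LinearMap.id_apply, sub_eq_zero]
  rw [← hE₁, ← hE₂] at hle
  have hc : IsCompl E₁ E₂ := by
    constructor
    · rw [Submodule.disjoint_def]
      intro v h1 h3
      rw [m1] at h1
      rw [m2, h1] at h3
      have h4 : (2 : F) • v = 0 := by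
        rw [two_smul]
        nth_rewrite 1 [← h3]
        exact neg_add_cancel v
      exact (smul_eq_zero.1 h4).resolve_left h2
    · rw [codisjoint_iff, eq_top_iff]
      intro v _
      have h3 : v = (2 : F)⁻¹ • (v - T v) + (2 : F)⁻¹ • (v + T v) := by
        rw [← smul_add]
        have : v - T v + (v + T v) = (2 : F) • v := by rw [two_smul]; abel
        rw [this, smul_smul, inv_mul_cancel₀ h2, one_smul]
      rw [h3]
      refine Submodule.add_mem_sup ?_ ?_
      · rw [m1, map_smul, map_sub, hT, ← smul_neg, neg_sub]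
      · rw [m2, map_smul, map_add, hT, add_comm]
  obtain ⟨P, hP⟩ : ∃ P : (E₁ × E₂) ≃ₗ[F] V, P = Submodule.prodEquivOfIsCompl E₁ E₂ hc := ⟨_, rfl⟩
  have hPa : ∀ x y, P (x, y) = (x : V) + y := by
    intro x y
    rw [hP]; exact Submodule.coe_prodEquivOfIsCompl' _ _ _ _
  have hPT : ∀ v, P.symm (T v) = (-(P.symm v).1, (P.symm v).2) := by
    intro v
    rw [LinearEquiv.symm_apply_eq, hPa]
    have h3 : v = ((P.symm v).1 : V) + (P.symm v).2 := by
      rw [← hPa]; exact (P.apply_symm_apply v).symm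
    conv_lhs => rw [h3]
    rw [map_add, (m1 _).1 (P.symm v).1.2, (m2 _).1 (P.symm v).2.2]
    rfl
  obtain ⟨k, hk⟩ : ∃ k, k = finrank F E₁ := ⟨_, rfl⟩
  obtain ⟨r, hr⟩ : ∃ r, finrank F E₂ = k + r := ⟨finrank F E₂ - k, by omega⟩
  have hsum : finrank F V = k + (k + r) := by
    rw [← hk] at hle
    rw [← LinearEquiv.finrank_eq P, finrank_prod, ← hk, hr]
  obtain ⟨a⟩ : Nonempty (E₁ ≃ₗ[F] (Fin k → F)) := ⟨LinearEquiv.ofFinrankEq _ _ (by rw [← hk, finrank_fin_fun])⟩
  obtain ⟨b⟩ : Nonempty (E₂ ≃ₗ[F] ((Fin k → F) × (Fin r → F))) :=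
    ⟨LinearEquiv.ofFinrankEq _ _ (by rw [hr, finrank_prod, finrank_fin_fun, finrank_fin_fun])⟩
  -- the coordinates
  obtain ⟨f, hf⟩ : ∃ f : V →ₗ[F] (Fin k ⊕ (Fin k ⊕ Fin r) → F), ∀ v, f v = Sum.elim
      (fun i => a (P.symm v).1 i + (b (P.symm v).2).1 i)
      (Sum.elim (fun i => (b (P.symm v).2).1 i - a (P.symm v).1 i) (fun i => (b (P.symm v).2).2 i)) := by
    refine ⟨{ toFun := _, map_add' := ?_, map_smul' := ?_ }, fun v => rfl⟩
    · intro v w
      funext i
      rcases i with i | i | i <;> simp <;> ring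
    · intro c v
      funext i
      rcases i with i | i | i <;> simp <;> ring
  have hinj : Function.Injective f := by
    rw [injective_iff_map_eq_zero]
    intro v hv
    rw [hf] at hv
    have h3 : ∀ i, a (P.symm v).1 i = 0 ∧ (b (P.symm v).2).1 i = 0 := by
      intro i
      have h4 := congrFun hv (Sum.inl i)
      have h5 := congrFun hv (Sum.inr (Sum.inl i))
      simp only [Sum.elim_inl, Sum.elim_inr, Pi.zero_apply] at h4 h5
      have h6 : (2 : F) * (b (P.symm v).2).1 i = 0 := by linear_combination h4 + h5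
      have h7 := (mul_eq_zero.1 h6).resolve_left h2
      exact ⟨by rw [h7, add_zero] at h4; exact h4, h7⟩
    have h8 : (P.symm v).1 = 0 := by
      apply a.injective
      rw [map_zero]
      funext i
      exact (h3 i).1
    have h9 : (P.symm v).2 = 0 := by
      apply b.injective
      rw [map_zero]
      refine Prod.ext (funext fun i => (h3 i).2) (funext fun i => ?_)
      exact congrFun hv (Sum.inr (Sum.inr i))
    apply P.symm.injective
    rw [map_zero]
    exact Prod.ext h8 h9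
  obtain ⟨e₀, he₀⟩ : ∃ e₀ : V ≃ₗ[F] (Fin k ⊕ (Fin k ⊕ Fin r) → F), ∀ v, e₀ v = f v :=
    ⟨LinearEquiv.ofInjectiveOfFinrankEq f hinj (by
      rw [hsum, finrank_fintype_fun_eq_card]; simp), fun v => rfl⟩
  obtain ⟨s, hs⟩ : ∃ s : Equiv.Perm (Fin k ⊕ (Fin k ⊕ Fin r)),
      (∀ i, s (Sum.inl i) = Sum.inr (Sum.inl i)) ∧ (∀ i, s (Sum.inr (Sum.inl i)) = Sum.inl i) ∧
      ∀ i, s (Sum.inr (Sum.inr i)) = Sum.inr (Sum.inr i) := by
    refine ⟨⟨Sum.elim (fun i => Sum.inr (Sum.inl i)) (Sum.elim Sum.inl (fun i => Sum.inr (Sum.inr i))),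
      Sum.elim (fun i => Sum.inr (Sum.inl i)) (Sum.elim Sum.inl (fun i => Sum.inr (Sum.inr i))), ?_, ?_⟩,
      fun i => rfl, fun i => rfl, fun i => rfl⟩
    · rintro (i | i | i) <;> rfl
    · rintro (i | i | i) <;> rfl
  have hTs : ∀ v i, e₀ (T v) i = e₀ v (s i) := by
    intro v i
    rw [he₀, he₀, hf, hf, hPT]
    rcases i with i | i | i
    · rw [hs.1]; simp [sub_eq_add_neg, add_comm]
    · rw [hs.2.1]; simp [add_comm]
    · rw [hs.2.2]; simp
  have ρ : Fin n ≃ (Fin k ⊕ (Fin k ⊕ Fin r)) := Fintype.equivOfCardEq (by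
    rw [Fintype.card_fin, ← hn, hsum]; simp)
  refine ⟨e₀.trans (LinearEquiv.funCongrLeft F F ρ), (ρ.trans s).trans ρ.symm, fun v i => ?_⟩
  rw [LinearEquiv.trans_apply, LinearEquiv.trans_apply]
  show e₀ (T v) (ρ i) = e₀ v (ρ (ρ.symm (s (ρ i))))
  rw [ρ.apply_symm_apply, hTs]

/-- **`T² = 1`: `± T` is a permutation matrix in some basis.** -/
theorem exists_perm_equiv (h2 : (2 : F) ≠ 0) (T : V →ₗ[F] V) (hT : ∀ v, T (T v) = v) {n : ℕ}
    (hn : finrank F V = n) :
    ∃ (e : V ≃ₗ[F] (Fin n → F)) (σ : Equiv.Perm (Fin n)) (ε : F), (ε = 1 ∨ ε = -1) ∧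
      ∀ v i, e (T v) i = ε * e v (σ i) := by
  rcases le_total (finrank F (LinearMap.ker (T + LinearMap.id))) (finrank F (LinearMap.ker (T - LinearMap.id))) with h | h
  · obtain ⟨e, σ, he⟩ := exists_perm_equiv_aux h2 T hT h hn
    exact ⟨e, σ, 1, Or.inl rfl, fun v i => by rw [he, one_mul]⟩
  · have e1 : LinearMap.ker (-T + LinearMap.id) = LinearMap.ker (T - LinearMap.id) := by
      have : -T + LinearMap.id = -(T - LinearMap.id) := by abel
      rw [this]
      ext v
      simp [LinearMap.mem_ker, sub_eq_zero]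
      constructor <;> intro h <;> exact h.symm
    have e2 : LinearMap.ker (-T - LinearMap.id) = LinearMap.ker (T + LinearMap.id) := by
      have : -T - LinearMap.id = -(T + LinearMap.id) := by abel
      rw [this]
      ext v
      simp only [LinearMap.mem_ker, LinearMap.neg_apply, neg_eq_zero]
    obtain ⟨e, σ, he⟩ := exists_perm_equiv_aux h2 (-T) (fun v => by
      rw [LinearMap.neg_apply, LinearMap.neg_apply, map_neg, neg_neg, hT]) (by rw [e1, e2]; exact h) hn
    refine ⟨e, σ, -1, Or.inr rfl, fun v i => ?_⟩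
    have h3 := he v i
    rw [LinearMap.neg_apply, map_neg, Pi.neg_apply] at h3
    rw [← h3]; ring

/-- **`T² = l`, `l` not a square.** -/
theorem exists_block_equiv {l : F} (hl : ¬ IsSquare l) (T : V →ₗ[F] V) (hT : ∀ v, T (T v) = l • v) :
    ∃ (h : ℕ) (e : V ≃ₗ[F] (Fin 2 × Fin h → F)), ∀ v i, e (T v) (0, i) = l * e v (1, i) ∧ e (T v) (1, i) = e v (0, i) := by
  classical
  have hirr : Irreducible (X ^ 2 - C l : F[X]) := by
    rw [X_pow_sub_C_irreducible_iff_of_prime Nat.prime_two]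
    intro b hb
    exact hl ⟨b, by rw [← hb, pow_two]⟩
  have hfact : Fact (Irreducible (X ^ 2 - C l : F[X])) := ⟨hirr⟩
  obtain ⟨φ, hφ1, hφ2⟩ : ∃ φ : AdjoinRoot (X ^ 2 - C l : F[X]) →+* Module.End F V,
      (∀ c : F, φ (algebraMap F _ c) = algebraMap F _ c) ∧ φ (AdjoinRoot.root _) = T := by
    refine ⟨Ideal.Quotient.lift _ (aeval T : F[X] →ₐ[F] Module.End F V).toRingHom ?_, ?_, ?_⟩
    · intro p hp
      obtain ⟨q, rfl⟩ := Ideal.mem_span_singleton.1 hp
      show aeval T ((X ^ 2 - C l) * q) = 0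
      rw [map_mul, map_sub, map_pow, aeval_X, aeval_C]
      have : T ^ 2 - algebraMap F (Module.End F V) l = 0 := by
        ext v
        rw [LinearMap.sub_apply, pow_two, Module.End.mul_apply, hT, Module.algebraMap_end_apply, sub_self]
        rfl
      rw [this, zero_mul]
    · intro c
      show aeval T (C c) = _
      rw [aeval_C]
    · show aeval T X = T
      rw [aeval_X]
  let _ : Module (AdjoinRoot (X ^ 2 - C l : F[X])) V := Module.compHom V φ
  have hsm : ∀ (k : AdjoinRoot (X ^ 2 - C l : F[X])) (v : V), k • v = φ k v := fun k v => rfl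
  have hst : IsScalarTower F (AdjoinRoot (X ^ 2 - C l : F[X])) V := by
    refine ⟨fun a k v => ?_⟩
    rw [hsm, hsm, Algebra.smul_def, map_mul, hφ1, Module.End.mul_apply, Module.algebraMap_end_apply]
  have hfd : Module.Finite (AdjoinRoot (X ^ 2 - C l : F[X])) V := Module.Finite.of_restrictScalars_finite F _ V
  have hne : (X ^ 2 - C l : F[X]) ≠ 0 := hirr.ne_zero
  have hdeg : (X ^ 2 - C l : F[X]).natDegree = 2 := natDegree_X_pow_sub_C
  have hdim : (AdjoinRoot.powerBasis hne).dim = 2 := by rw [AdjoinRoot.powerBasis_dim, hdeg]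
  obtain ⟨c, hc0, hc1⟩ : ∃ c : Basis (Fin 2) F (AdjoinRoot (X ^ 2 - C l : F[X])), c 0 = 1 ∧ c 1 = AdjoinRoot.root _ := by
    refine ⟨(AdjoinRoot.powerBasis hne).basis.reindex (finCongr hdim), ?_, ?_⟩
    · rw [Basis.reindex_apply, PowerBasis.basis_eq_pow]
      simp
    · rw [Basis.reindex_apply, PowerBasis.basis_eq_pow]
      simp
  let b := finBasis (AdjoinRoot (X ^ 2 - C l : F[X])) V
  let B := c.smulTower b
  have hB0 : ∀ i, B (0, i) = b i := fun i => by
    show (c.smulTower b) (0, i) = b i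
    rw [Basis.smulTower_apply, hc0, one_smul]
  have hB1 : ∀ i, B (1, i) = T (b i) := fun i => by
    show (c.smulTower b) (1, i) = T (b i)
    rw [Basis.smulTower_apply, hc1, hsm, hφ2]
  refine ⟨_, B.equivFun, ?_⟩
  have hT0 : ∀ k, T (B (0, k)) = B (1, k) := fun k => by rw [hB0, hB1]
  have hT1 : ∀ k, T (B (1, k)) = l • B (0, k) := fun k => by rw [hB0, hB1, hT]
  have hself : ∀ p q, B.equivFun (B p) q = if p = q then 1 else 0 := fun p q => B.equivFun_self p q
  intro v i
  constructor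
  · have h1 : (LinearMap.proj (R := F) (φ := fun _ : Fin 2 × Fin _ => F) (0, i)) ∘ₗ B.equivFun.toLinearMap ∘ₗ T =
        l • ((LinearMap.proj (R := F) (φ := fun _ : Fin 2 × Fin _ => F) (1, i)) ∘ₗ B.equivFun.toLinearMap) := by
      refine B.ext ?_
      rintro ⟨j, k⟩
      show B.equivFun (T (B (j, k))) (0, i) = l * B.equivFun (B (j, k)) (1, i)
      fin_cases j
      · show B.equivFun (T (B (0, k))) (0, i) = l * B.equivFun (B (0, k)) (1, i)
        rw [hT0, hself, hself]
        simp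
      · show B.equivFun (T (B (1, k))) (0, i) = l * B.equivFun (B (1, k)) (1, i)
        rw [hT1, map_smul, Pi.smul_apply, smul_eq_mul, hself, hself]
        simp
    exact LinearMap.congr_fun h1 v
  · have h1 : (LinearMap.proj (R := F) (φ := fun _ : Fin 2 × Fin _ => F) (1, i)) ∘ₗ B.equivFun.toLinearMap ∘ₗ T =
        ((LinearMap.proj (R := F) (φ := fun _ : Fin 2 × Fin _ => F) (0, i)) ∘ₗ B.equivFun.toLinearMap) := by
      refine B.ext ?_
      rintro ⟨j, k⟩
      show B.equivFun (T (B (j, k))) (1, i) = B.equivFun (B (j, k)) (0, i)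
      fin_cases j
      · show B.equivFun (T (B (0, k))) (1, i) = B.equivFun (B (0, k)) (0, i)
        rw [hT0, hself, hself]
        simp
      · show B.equivFun (T (B (1, k))) (1, i) = B.equivFun (B (1, k)) (0, i)
        rw [hT1, map_smul, Pi.smul_apply, smul_eq_mul, hself, hself]
        simp
    exact LinearMap.congr_fun h1 v

/-- **`T² = l`, `l` not a square: `T` is monomial in some basis.** -/
theorem exists_mono_equiv {l : F} (hl : ¬ IsSquare l) (T : V →ₗ[F] V) (hT : ∀ v, T (T v) = l • v) {n : ℕ}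
    (hn : finrank F V = n) :
    ∃ (e : V ≃ₗ[F] (Fin n → F)) (σ : Equiv.Perm (Fin n)) (d : Fin n → F),
      ∀ v i, e (T v) i = d i * e v (σ i) := by
  classical
  obtain ⟨h, e, he⟩ := exists_block_equiv hl T hT
  have hc : Fintype.card (Fin n) = Fintype.card (Fin 2 × Fin h) := by
    rw [Fintype.card_fin, ← hn, LinearEquiv.finrank_eq e, finrank_fintype_fun_eq_card]
  obtain ⟨ρ⟩ : Nonempty (Fin n ≃ Fin 2 × Fin h) := ⟨Fintype.equivOfCardEq hc⟩
  refine ⟨e.trans (LinearEquiv.funCongrLeft F F ρ),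
    (ρ.trans (Equiv.prodCongr (Equiv.swap 0 1) (Equiv.refl _))).trans ρ.symm,
    fun i => if (ρ i).1 = 0 then l else 1, fun v i => ?_⟩
  rw [LinearEquiv.trans_apply, LinearEquiv.trans_apply]
  show e (T v) (ρ i) = (if (ρ i).1 = 0 then l else 1) * e v (ρ (ρ.symm ((Equiv.swap 0 1) (ρ i).1, (ρ i).2)))
  rw [ρ.apply_symm_apply]
  obtain ⟨j, k⟩ := ρ i
  have := he v k
  fin_cases j
  · simpa using this.1
  · simpa using this.2

end Cfsg.Agent.H594.Unf
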