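import Cfsg.Agent.H507.GmnMono
import Cfsg.Agent.H902.Lte
import Mathlib

/-!
# The index of the monomial subgroup of `GL_n(q)`, `SL_n(q)`, `PSL_n(q)` is odd for `q ≡ 1 mod 4` (helper594, S3026)
-/

set_option autoImplicit false

namespace Cfsg.Agent.H594.Unf

open Matrix Subgroup Cfsg.Agent.H507.GmnMono

/-- lifting the exponent, `p = 2`, `q ≡ 1 mod 4` -/
theorem padic_pow {q : ℕ} (hq : q % 4 = 1) (hq1 : 1 < q) {k : ℕ} (hk : k ≠ 0) :
    padicValNat 2 (q ^ k - 1) = padicValNat 2 (q - 1) + padicValNat 2 k := by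
  have : Fact (Nat.Prime 2) := ⟨Nat.prime_two⟩
  have key : ∀ k : ℕ, k ≠ 0 → padicValInt 2 ((q : ℤ) ^ k - 1) = padicValNat 2 (q ^ k - 1) := by
    intro k hk
    have h1 : ((q : ℤ) ^ k - 1) = ((q ^ k - 1 : ℕ) : ℤ) := by
      rw [Nat.cast_sub (Nat.one_le_pow _ _ (by omega))]; push_cast; ring
    rw [h1, padicValInt.of_nat]
  have hx : (2 : ℤ) ≤ |(q : ℤ)| := by rw [abs_of_nonneg (by positivity)]; exact_mod_cast hq1
  have h2 : ¬ (2 : ℤ) ∣ (q : ℤ) := by
    intro h
    have : 2 ∣ q := by exact_mod_cast h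
    omega
  have h3 := Cfsg.Agent.H902.Lte.lte_two hx h2 hk
  rw [key k hk] at h3
  have e1 : padicValInt 2 ((q : ℤ) - 1) = padicValNat 2 (q - 1) := by
    have := key 1 one_ne_zero
    rwa [pow_one, pow_one] at this
  rw [h3]
  split_ifs with he
  · obtain ⟨m, rfl⟩ := he
    have hm : m ≠ 0 := by rintro rfl; exact hk rfl
    have h4 : (m + m) / 2 = m := by omega
    rw [h4, key 2 two_ne_zero]
    have h5 : q ^ 2 - 1 = (q - 1) * (q + 1) := by
      obtain ⟨r, rfl⟩ : ∃ r, q = r + 1 := ⟨q - 1, by omega⟩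
      have : (r + 1) ^ 2 = r * (r + 1 + 1) + 1 := by ring
      rw [this]; simp
    have h6 : padicValNat 2 (q + 1) = 1 := by
      have h7 : q + 1 = 2 * ((q + 1) / 2) := by omega
      rw [h7, padicValNat.mul two_ne_zero (by omega), padicValNat.self (by norm_num),
        padicValNat.eq_zero_of_not_dvd (by omega)]
    have h8 : m + m = 2 * m := by ring
    rw [h5, padicValNat.mul (by omega) (by omega), h6, h8, padicValNat.mul two_ne_zero hm,
      padicValNat.self (by norm_num)]
    ring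
  · rw [e1, padicValNat.eq_zero_of_not_dvd (n := k), add_zero]
    intro h
    exact he (even_iff_two_dvd.2 h)

/-- The `2`-part of `∏ (q^n - q^i)` for `q ≡ 1 mod 4`. -/
theorem padic_card {q : ℕ} (hq : q % 4 = 1) (hq1 : 1 < q) (n : ℕ) :
    padicValNat 2 (∏ i : Fin n, (q ^ n - q ^ (i : ℕ))) = padicValNat 2 (n.factorial * (q - 1) ^ n) := by
  have hp : Fact (Nat.Prime 2) := ⟨Nat.prime_two⟩
  have hnd : ¬ 2 ∣ q := by omega
  have h1 : ∀ i : Fin n, q ^ n - q ^ (i : ℕ) ≠ 0 := by
    intro i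
    exact Nat.sub_ne_zero_of_lt (Nat.pow_lt_pow_right hq1 i.2)
  rw [padic_prod _ _ (fun i _ => h1 i)]
  have h2 : ∀ i : Fin n, padicValNat 2 (q ^ n - q ^ (i : ℕ)) = padicValNat 2 (q - 1) + padicValNat 2 (n - i) := by
    intro i
    have h3 : q ^ n - q ^ (i : ℕ) = q ^ (i : ℕ) * (q ^ (n - i) - 1) := by
      rw [Nat.mul_sub, mul_one, ← pow_add, Nat.add_sub_cancel' i.2.le]
    have h4 : q ^ (n - (i : ℕ)) - 1 ≠ 0 :=
      Nat.sub_ne_zero_of_lt (Nat.one_lt_pow (Nat.sub_ne_zero_of_lt i.2) hq1)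
    rw [h3, padicValNat.mul (pow_ne_zero _ (by omega)) h4, padicValNat.eq_zero_of_not_dvd, zero_add,
      padic_pow hq hq1 (Nat.sub_ne_zero_of_lt i.2)]
    intro h5
    exact hnd (hp.out.dvd_of_dvd_pow h5)
  rw [Finset.sum_congr rfl fun i _ => h2 i, Finset.sum_add_distrib, Finset.sum_const, Finset.card_univ,
    Fintype.card_fin, padicValNat.mul (Nat.factorial_ne_zero n) (pow_ne_zero _ (by omega)),
    padicValNat.pow, smul_eq_mul, add_comm]
  congr 1
  rw [← padic_prod _ _ (fun i _ => Nat.sub_ne_zero_of_lt i.2)]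
  congr 1
  rw [← Finset.prod_range (fun i => n - i)]
  have h6 := Finset.prod_range_reflect (fun i => i + 1) n
  rw [Finset.prod_range_add_one_eq_factorial] at h6
  rw [← h6]
  refine Finset.prod_congr rfl fun i hi => ?_
  have := Finset.mem_range.1 hi
  omega

variable {F : Type*} [Field F] [Fintype F] {n : ℕ}

/-- **The index of the monomial group in `GL_n(q)` is odd for `q ≡ 1 mod 4`.** -/
theorem odd_index_Mon (hF : Fintype.card F % 4 = 1) : Odd (Mon (Fin n) F).index := by
  have : Fact (Nat.Prime 2) := ⟨Nat.prime_two⟩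
  have hq : 1 < Fintype.card F := Fintype.one_lt_card
  have h1 := (Mon (Fin n) F).card_mul_index
  rw [card_Mon, Matrix.card_GL_field, Fintype.card_fin] at h1
  have h2 := padic_card hF hq n
  rw [← h1, padicValNat.mul (mul_ne_zero (Nat.factorial_ne_zero n) (pow_ne_zero _ (by omega)))
    (Subgroup.index_ne_zero_of_finite)] at h2
  rw [← Nat.not_even_iff_odd, even_iff_two_dvd]
  intro h3
  have h4 : 1 ≤ padicValNat 2 (Mon (Fin n) F).index := one_le_padicValNat_of_dvd Subgroup.index_ne_zero_of_finite h3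
  omega

/-- index of an intersection with a normal supplement -/
theorem relIndex_of_sup {G : Type*} [Group G] [Finite G] (H K : Subgroup G) [K.Normal] (h : H ⊔ K = ⊤) :
    H.relIndex K = H.index := by
  have h1 : K.relIndex H = K.index := by
    rw [← Subgroup.relIndex_sup_right H K, h, relIndex_top_right]
  have h2 := relIndex_mul_index (inf_le_left : H ⊓ K ≤ H)
  have h3 := relIndex_mul_index (inf_le_right : H ⊓ K ≤ K)
  rw [inf_relIndex_left] at h2
  rw [inf_relIndex_right, ← h2, h1, mul_comm] at h3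
  exact Nat.eq_of_mul_eq_mul_left (Nat.pos_of_ne_zero K.index_ne_zero_of_finite) h3

omit [Fintype F] in
theorem toGL_range : (SpecialLinearGroup.toGL (n := Fin n) (R := F)).range = (GeneralLinearGroup.det).ker := by
  ext g
  rw [MonoidHom.mem_range, MonoidHom.mem_ker]
  constructor
  · rintro ⟨A, rfl⟩
    apply Units.ext
    rw [GeneralLinearGroup.val_det_apply]
    exact A.2
  · intro h
    refine ⟨⟨(g : Matrix (Fin n) (Fin n) F), ?_⟩, ?_⟩
    · rw [← GeneralLinearGroup.val_det_apply, h]; rfl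
    · apply Units.ext
      rfl

/-- the monomial subgroup of `SL_n` -/
def MonSL (n : ℕ) (F : Type*) [Field F] : Subgroup (SpecialLinearGroup (Fin n) F) :=
  (Mon (Fin n) F).comap SpecialLinearGroup.toGL

omit [Fintype F] in
theorem mem_MonSL {A : SpecialLinearGroup (Fin n) F} :
    A ∈ MonSL n F ↔ ∃ π d, SpecialLinearGroup.toGL A = mono π d := Iff.rfl

theorem odd_index_MonSL (hF : Fintype.card F % 4 = 1) (hn : n ≠ 0) : Odd (MonSL n F).index := by
  rw [MonSL, index_comap, toGL_range, relIndex_of_sup]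
  · exact odd_index_Mon hF
  · rw [eq_top_iff]
    intro g _
    have hpos : 0 < n := Nat.pos_of_ne_zero hn
    obtain ⟨d, hd⟩ : ∃ d : Fin n → Fˣ, ∏ i, d i = GeneralLinearGroup.det g := by
      refine ⟨fun i => if i = ⟨0, hpos⟩ then GeneralLinearGroup.det g else 1, ?_⟩
      rw [Finset.prod_ite_eq' Finset.univ (⟨0, hpos⟩ : Fin n) (fun _ => GeneralLinearGroup.det g)]
      simp
    have h1 : GeneralLinearGroup.det (mono 1 d) = GeneralLinearGroup.det g := by
      apply Units.ext
      rw [GeneralLinearGroup.val_det_apply, coe_mono, det_M, Equiv.Perm.sign_one, ← hd]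
      push_cast
      simp
    have h2 : g = mono 1 d * ((mono 1 d)⁻¹ * g) := by group
    rw [h2]
    refine mul_mem (mem_sup_left ⟨1, d, rfl⟩) (mem_sup_right ?_)
    rw [MonoidHom.mem_ker, map_mul, map_inv, h1, inv_mul_cancel]

/-- the projection `SL_n → PSL_n` -/
abbrev proj (n : ℕ) (F : Type*) [Field F] :
    SpecialLinearGroup (Fin n) F →* ProjectiveSpecialLinearGroup (Fin n) F :=
  QuotientGroup.mk' (center (SpecialLinearGroup (Fin n) F))

omit [Fintype F] in
/-- scalar elements are monomial -/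
theorem mono_scalar (c : Fˣ) : ((mono (1 : Equiv.Perm (Fin n)) (fun _ => c) : GL (Fin n) F) : Matrix (Fin n) (Fin n) F) =
    (c : F) • 1 := by
  rw [coe_mono, M_diag, smul_one_eq_diagonal]

omit [Fintype F] in
theorem exists_scalar {A : SpecialLinearGroup (Fin n) F} (hA : A ∈ center (SpecialLinearGroup (Fin n) F)) (hn : n ≠ 0) :
    ∃ c : Fˣ, SpecialLinearGroup.toGL A = mono 1 (fun _ => c) := by
  obtain ⟨r, hr, hA⟩ := Matrix.SpecialLinearGroup.mem_center_iff.1 hA
  have hr0 : r ≠ 0 := by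
    rintro rfl
    rw [Fintype.card_fin, zero_pow hn] at hr
    exact zero_ne_one hr
  refine ⟨Units.mk0 r hr0, ?_⟩
  apply Units.ext
  rw [mono_scalar, Units.val_mk0]
  have h1 : ((SpecialLinearGroup.toGL A : GL (Fin n) F) : Matrix (Fin n) (Fin n) F) = (A : Matrix (Fin n) (Fin n) F) := rfl
  rw [h1, ← hA, smul_one_eq_diagonal]
  rfl

omit [Fintype F] in
theorem center_le_MonSL (hn : n ≠ 0) : center (SpecialLinearGroup (Fin n) F) ≤ MonSL n F := by
  intro A hA
  obtain ⟨c, hc⟩ := exists_scalar hA hn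
  exact ⟨_, _, hc⟩

/-- the monomial subgroup of `PSL_n` -/
def MonP (n : ℕ) (F : Type*) [Field F] : Subgroup (ProjectiveSpecialLinearGroup (Fin n) F) :=
  (MonSL n F).map (proj n F)

theorem odd_index_MonP (hF : Fintype.card F % 4 = 1) (hn : n ≠ 0) : Odd (MonP n F).index := by
  rw [MonP, index_map, QuotientGroup.ker_mk', sup_eq_left.2 (center_le_MonSL hn),
    MonoidHom.range_eq_top.2 (QuotientGroup.mk'_surjective _), index_top, mul_one]
  exact odd_index_MonSL hF hn

end Cfsg.Agent.H594.Unf
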