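import Cfsg.Agent.H720.PV.Regular

/-!
# Zeros of characters without fixed vectors: the parabolic `N(Z(W))`, `W` a Sylow `r`-subgroup (helper594)

`K` a finite simple group with a split (B, N)-pair of characteristic `r`, `W` a Sylow `r`-subgroup,
`cen W = Z(W)`, `nor W = N(Z(W))`, `rad W = O_r(N(Z(W)))` (the intersection of the conjugates of `W` under `nor W`).
Some irreducible character `χ` vanishes at all images under automorphisms of all elements `s ∈ nor W` with
`C_{rad W}(s) = 1` (`exists_char`, `vz_of_rad`).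
-/

set_option autoImplicit false

open scoped Pointwise

namespace Cfsg.Agent.H594.VzCen

open Cfsg Cfsg.Agent.Characters Cfsg.Agent.FixBN

variable {K : Type*} [Group K]

/-- the centre of `W` -/
def cen (W : Subgroup K) : Subgroup K where
  carrier := {z | z ∈ W ∧ ∀ w ∈ W, z * w = w * z}
  one_mem' := ⟨one_mem _, fun w _ => by rw [one_mul, mul_one]⟩
  mul_mem' := by
    rintro a b ⟨ha, ha'⟩ ⟨hb, hb'⟩
    exact ⟨mul_mem ha hb, fun w hw => by rw [mul_assoc, hb' w hw, ← mul_assoc, ha' w hw, mul_assoc]⟩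
  inv_mem' := by
    rintro a ⟨ha, ha'⟩
    refine ⟨inv_mem ha, fun w hw => ?_⟩
    have := ha' w hw
    calc a⁻¹ * w = a⁻¹ * (w * a) * a⁻¹ := by group
      _ = a⁻¹ * (a * w) * a⁻¹ := by rw [this]
      _ = w * a⁻¹ := by group

theorem mem_cen {W : Subgroup K} {z : K} : z ∈ cen W ↔ z ∈ W ∧ ∀ w ∈ W, z * w = w * z := Iff.rfl

/-- `N(Z(W))` -/
def nor (W : Subgroup K) : Subgroup K := Subgroup.normalizer (cen W : Set K)

theorem mem_nor {W : Subgroup K} {k : K} : k ∈ nor W ↔ ∀ z, z ∈ cen W ↔ k * z * k⁻¹ ∈ cen W :=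
  Subgroup.mem_normalizer_iff

/-- the intersection of the conjugates of `W` under `N(Z(W))` -/
def rad (W : Subgroup K) : Subgroup K where
  carrier := {v | ∀ k ∈ nor W, k⁻¹ * v * k ∈ W}
  one_mem' := fun k _ => by
    have : k⁻¹ * 1 * k = 1 := by group
    rw [this]; exact one_mem _
  mul_mem' := by
    intro a b ha hb k hk
    have : k⁻¹ * (a * b) * k = (k⁻¹ * a * k) * (k⁻¹ * b * k) := by group
    rw [this]
    exact mul_mem (ha k hk) (hb k hk)
  inv_mem' := by
    intro a ha k hk
    have : k⁻¹ * a⁻¹ * k = (k⁻¹ * a * k)⁻¹ := by group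
    rw [this]
    exact inv_mem (ha k hk)

theorem mem_rad {W : Subgroup K} {v : K} : v ∈ rad W ↔ ∀ k ∈ nor W, k⁻¹ * v * k ∈ W := Iff.rfl

/-! ### transport -/

section transport

variable (f : K ≃* K) {W W' : Subgroup K} (h : ∀ y, y ∈ W ↔ f y ∈ W')

include h

theorem cen_iff (y : K) : y ∈ cen W ↔ f y ∈ cen W' := by
  rw [mem_cen, mem_cen, ← h]
  refine and_congr_right fun _ => ?_
  constructor
  · intro h1 w hw
    obtain ⟨w, rfl⟩ := f.surjective w
    rw [← map_mul, h1 w ((h w).2 hw), map_mul]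
  · intro h1 w hw
    apply f.injective
    rw [map_mul, map_mul]
    exact h1 _ ((h w).1 hw)

theorem nor_iff (y : K) : y ∈ nor W ↔ f y ∈ nor W' := by
  rw [mem_nor, mem_nor]
  constructor
  · intro h1 z
    obtain ⟨z, rfl⟩ := f.surjective z
    rw [← cen_iff f h, ← map_inv, ← map_mul, ← map_mul, ← cen_iff f h]
    exact h1 z
  · intro h1 z
    have := h1 (f z)
    rw [← cen_iff f h, ← map_inv, ← map_mul, ← map_mul, ← cen_iff f h] at this
    exact this

theorem rad_iff (y : K) : y ∈ rad W ↔ f y ∈ rad W' := by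
  rw [mem_rad, mem_rad]
  constructor
  · intro h1 k hk
    obtain ⟨k, rfl⟩ := f.surjective k
    rw [← map_inv, ← map_mul, ← map_mul, ← h]
    exact h1 k ((nor_iff f h k).2 hk)
  · intro h1 k hk
    rw [h, map_mul, map_mul, map_inv]
    exact h1 _ ((nor_iff f h k).1 hk)

end transport

theorem nor_conj_rad {W : Subgroup K} {s : K} (hs : s ∈ nor W) (u : K) : u ∈ rad W ↔ s * u * s⁻¹ ∈ rad W := by
  rw [mem_rad, mem_rad]
  constructor
  · intro h k hk
    have := h (s⁻¹ * k) (mul_mem (inv_mem hs) hk)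
    have e : (s⁻¹ * k)⁻¹ * u * (s⁻¹ * k) = k⁻¹ * (s * u * s⁻¹) * k := by group
    rwa [e] at this
  · intro h k hk
    have := h (s * k) (mul_mem hs hk)
    have e : (s * k)⁻¹ * (s * u * s⁻¹) * (s * k) = k⁻¹ * u * k := by group
    rwa [e] at this

theorem normalizer_le_nor {W : Subgroup K} {b : K} (hb : ∀ u, u ∈ W ↔ b * u * b⁻¹ ∈ W) : b ∈ nor W := by
  rw [mem_nor]
  intro z
  have := cen_iff (MulAut.conj b) (W := W) (W' := W) (fun y => by rw [MulAut.conj_apply]; exact hb y) z
  rwa [MulAut.conj_apply] at this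

/-- **An irreducible character vanishing at the elements of `N(Z(W))` acting fixed point freely on the radical**,
and at their images under automorphisms. -/
theorem exists_char [Finite K] [IsSimpleGroup K] {r : ℕ} [hr : Fact r.Prime] (hS : HasSplit r K) :
    ∃ χ : IrrCharacter K, ∀ (W : Sylow r K) (s : K), s ∈ nor (W : Subgroup K) →
      (∀ v ∈ rad (W : Subgroup K), s * v = v * s → v = 1) → ∀ α : MulAut K, (χ : K → ℂ) (α s) = 0 := by
  classical
  obtain ⟨P, U, hne, h⟩ := hS
  obtain ⟨Q, hQ⟩ := H612.CharTwo.exists_sylow h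
  have hU : IsPGroup r U := h.isP
  have hB : P.B ≤ nor U := by
    intro b hb
    rw [← h.normalizer_eq, Subgroup.mem_normalizer_iff] at hb
    exact normalizer_le_nor hb
  -- `Z(U)` is neither trivial nor the whole group
  have hBt : P.B ≠ ⊤ := by
    obtain ⟨s, hs⟩ := hne
    intro hB
    exact LieExceptional.BNPairCore.not_mem_B hs (by rw [hB]; trivial)
  have hUb : U ≠ ⊥ := by
    rintro rfl
    apply hBt
    rw [← h.normalizer_eq, eq_top_iff]
    intro x _
    rw [Subgroup.mem_normalizer_iff]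
    intro y
    constructor
    · intro hy
      have hy' : y = 1 := Subgroup.mem_bot.1 hy
      have : x * y * x⁻¹ = 1 := by rw [hy']; group
      exact Subgroup.mem_bot.2 this
    · intro hy
      have hy' : x * y * x⁻¹ = 1 := Subgroup.mem_bot.1 hy
      have : y = 1 := by
        have h2 : y = x⁻¹ * (x * y * x⁻¹) * x := by group
        rw [h2, hy']; group
      exact Subgroup.mem_bot.2 this
  have hntU : Nontrivial U := (Subgroup.nontrivial_iff_ne_bot U).2 hUb
  obtain ⟨⟨z, hz⟩, hz1⟩ := @exists_ne _ hU.center_nontrivial 1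
  have hzc : (z : K) ∈ cen U := ⟨z.2, fun w hw => by
    have := (Subgroup.mem_center_iff.1 hz) ⟨w, hw⟩
    exact (congrArg Subtype.val this).symm⟩
  have hnor : nor U ≠ ⊤ := by
    intro htop
    have hn : (cen U).Normal := Subgroup.normalizer_eq_top_iff.1 htop
    rcases IsSimpleGroup.eq_bot_or_eq_top_of_normal (cen U) hn with h1 | h1
    · apply hz1
      apply Subtype.ext
      apply Subtype.ext
      have : (z : K) ∈ (⊥ : Subgroup K) := h1 ▸ hzc
      exact Subgroup.mem_bot.1 this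
    · apply hBt
      rw [eq_top_iff, ← h1]
      exact fun y hy => h.le hy.1
  have : Fintype (rad U) := Fintype.ofFinite _
  obtain ⟨χ, hχ⟩ := H40.GGS.exists_no_fixed_par h (nor U) hB hnor (rad U) (fun v => Iff.rfl)
  refine ⟨χ, fun W s hs hreg α => ?_⟩
  obtain ⟨g, hg⟩ := MulAction.exists_smul_eq K (α • W) Q
  -- `f = conj g ∘ α` maps `W` to `U`
  let f : K ≃* K := α.trans (MulAut.conj g)
  have hf : ∀ y, f y = g * α y * g⁻¹ := fun y => rfl
  have hfW : ∀ y, y ∈ (W : Subgroup K) ↔ f y ∈ U := by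
    intro y
    rw [← hQ, ← hg, Sylow.coe_subgroup_smul, Subgroup.mem_pointwise_smul_iff_inv_smul_mem]
    have h1 : (MulAut.conj g)⁻¹ • f y = α y := by
      rw [hf]
      change (MulAut.conj g)⁻¹ (g * α y * g⁻¹) = _
      rw [← map_inv, MulAut.conj_apply]
      group
    rw [h1, Sylow.pointwise_smul_def, Subgroup.mem_pointwise_smul_iff_inv_smul_mem]
    have h2 : α⁻¹ • α y = y := by
      change α⁻¹ (α y) = y
      exact MulEquiv.symm_apply_apply α y
    rw [h2]
  have hcl : (χ : K → ℂ) (α s) = (χ : K → ℂ) (f s) := by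
    rw [hf]
    exact (Core.isIrr_isClassFunction χ.2 (α s) g).symm
  rw [hcl]
  have hs' : f s ∈ nor U := (nor_iff f hfW s).1 hs
  refine H720.PV.zero_of_regular (rad U) χ.2 hχ (nor_conj_rad hs') fun u hu hc => ?_
  obtain ⟨u, rfl⟩ := f.surjective u
  have hu' := (rad_iff f hfW u).2 hu
  rw [← map_mul, ← map_mul] at hc
  rw [hreg u hu' (f.injective hc), map_one]

theorem vz_of_rad [Finite K] [IsSimpleGroup K] {r : ℕ} [hr : Fact r.Prime] (hS : HasSplit r K) (W : Sylow r K)
    {s : K} (hs : s ∈ nor (W : Subgroup K)) (h : ∀ v ∈ rad (W : Subgroup K), s * v = v * s → v = 1) :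
    H713.VZ K s := by
  obtain ⟨χ, hχ⟩ := exists_char hS
  exact ⟨χ, fun α => hχ W s hs h α⟩

end Cfsg.Agent.H594.VzCen
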