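import Cfsg.Agent.ClassicalGeometry.NonsplitTorus

/-!
# Matrices of determinant `-1` and 2-power order over fields with `q = 3 mod 4` elements (helper594)

`ab c n` : the coefficients of `t ^ n = a t + b` if `t ^ 2 = c t + 1`; `exists_c` : for `q = 3 mod 4` there are `c ≠ 0` and
`k ≥ 1` with `t ^ (2 ^ k) = 1`.
-/

set_option autoImplicit false

namespace Cfsg.Agent.H594.VzQuad

open Cfsg.Agent.ClassicalGeometry.NonsplitTorus

/-- the coefficients of the powers -/
def ab {F : Type*} [Field F] (c : F) : ℕ → F × F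
  | 0 => (0, 1)
  | n + 1 => (c * (ab c n).1 + (ab c n).2, (ab c n).1)

theorem pow_apply {F M : Type*} [Field F] [AddCommGroup M] [Module F M] (t : M →ₗ[F] M) {c : F} {v : M}
    (h : t (t v) = v + c • t v) (n : ℕ) : (t ^ n) v = (ab c n).1 • t v + (ab c n).2 • v := by
  induction n with
  | zero => simp [ab]
  | succ n ih =>
    rw [pow_succ', Module.End.mul_apply, ih, map_add, map_smul, map_smul, h, ab]
    module

theorem exists_c (F : Type*) [Field F] [Fintype F] (h4 : Fintype.card F % 4 = 3) :
    ∃ (c : F) (k : ℕ), c ≠ 0 ∧ 1 ≤ k ∧ ab c (2 ^ k) = (0, 1) := by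
  obtain ⟨p, hp⟩ := CharP.exists F
  obtain ⟨n, hp', hn⟩ := FiniteField.card F p
  have : Fact p.Prime := ⟨hp'⟩
  set E := FiniteField.Extension F p 2 with hEdef
  have hE : Module.finrank F E = 2 := FiniteField.finrank_extension F p 2
  have b : Module.Basis (Fin 2) F E := Module.finBasisOfFinrankEq F E hE
  set L := Algebra.leftMulMatrix b with hL
  have hLinj : Function.Injective L := Algebra.leftMulMatrix_injective b
  have hdet : ∀ x : E, (L x).det = Algebra.norm F x := fun x =>
    (Algebra.norm_eq_matrix_det b x).symm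
  set q := Fintype.card F with hq
  obtain ⟨m, hm⟩ : ∃ m, q = 4 * m + 3 := ⟨q / 4, by omega⟩
  obtain ⟨ζ, hζ⟩ := IsCyclic.exists_generator (α := Eˣ)
  have ho : orderOf ζ = (q - 1) * (q + 1) := by
    rw [orderOf_eq_card_of_forall_mem_zpowers hζ, Nat.card_units, card_E hE, ← hq]
    apply Nat.sub_eq_of_eq_add
    obtain ⟨j, hj⟩ : ∃ j, q = j + 1 := ⟨q - 1, by omega⟩
    rw [hj, Nat.add_sub_cancel]
    ring
  obtain ⟨a, m1, hm1, ha⟩ := Nat.exists_eq_two_pow_mul_odd (n := q + 1) (by omega)
  set m2 := 2 * m + 1 with hm2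
  have hq1 : q - 1 = 2 * m2 := by omega
  have ha2 : 2 ≤ a := by
    by_contra hlt
    interval_cases a
    · rw [pow_zero, one_mul] at ha
      obtain ⟨j, hj⟩ := hm1
      omega
    · rw [pow_one] at ha
      obtain ⟨j, hj⟩ := hm1
      omega
  have hm1pos : 0 < m1 := hm1.pos
  have ho' : orderOf ζ = m1 * m2 * 2 ^ (a + 1) := by
    rw [ho, hq1, ha]
    ring
  set z := ζ ^ (m1 * m2) with hz
  have hzo : orderOf z = 2 ^ (a + 1) := by
    rw [hz, orderOf_pow_of_dvd (Nat.mul_pos hm1pos (by omega)).ne' (by rw [ho']; exact Dvd.intro _ rfl), ho']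
    exact Nat.mul_div_cancel_left _ (Nat.mul_pos hm1pos (by omega))
  -- `z ^ (q + 1) = -1`
  have hy : ((z ^ 2 ^ a : Eˣ) : E) = -1 := by
    have h1 : (z ^ 2 ^ a) ^ 2 = 1 := by
      rw [← pow_mul, ← pow_succ, ← hzo, pow_orderOf_eq_one]
    have h2 : z ^ 2 ^ a ≠ 1 := by
      intro h3
      have h4 := orderOf_dvd_of_pow_eq_one h3
      rw [hzo] at h4
      have := Nat.le_of_dvd (pow_pos (by norm_num) _) h4
      rw [pow_succ] at this
      have h5 : 0 < 2 ^ a := pow_pos (by norm_num) _
      omega
    have h3 : ((z ^ 2 ^ a : Eˣ) : E) * ((z ^ 2 ^ a : Eˣ) : E) = 1 := by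
      rw [← Units.val_mul, ← sq, h1, Units.val_one]
    rcases mul_self_eq_one_iff.1 h3 with h4 | h4
    · exact absurd (Units.ext h4) h2
    · exact h4
  have hzq : ((z : Eˣ) : E) ^ (q + 1) = -1 := by
    rw [ha, pow_mul, ← Units.val_pow_eq_pow_val, hy]
    exact Odd.neg_one_pow hm1
  have hnorm : Algebra.norm F (z : E) = -1 := by
    apply (algebraMap F E).injective
    rw [algebraMap_norm hE, hzq, map_neg, map_one]
  set c := (L (z : E)).trace with hc
  have hzz : (z : E) * z = z + 0 → True := fun _ => trivial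
  have hsq : (z : E) * z = 1 + c • (z : E) := by
    apply hLinj
    rw [map_mul, mul_self_eq, hdet, hnorm, map_add, map_one, map_smul]
    module
  refine ⟨c, a + 1, ?_, by omega, ?_⟩
  · intro h0
    rw [h0, zero_smul, add_zero] at hsq
    have h1 : z ^ 2 = 1 := by
      apply Units.ext
      rw [sq, Units.val_mul, hsq, Units.val_one]
    have h2 := orderOf_dvd_of_pow_eq_one h1
    rw [hzo] at h2
    have h3 := Nat.le_of_dvd (by norm_num) h2
    have h4 : 2 ^ 3 ≤ 2 ^ (a + 1) := Nat.pow_le_pow_right (by norm_num) (by omega)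
    omega
  · -- powers
    let t : E →ₗ[F] E := LinearMap.mulLeft F (z : E)
    have ht : ∀ v, t v = z * v := fun v => rfl
    have h1 : t (t 1) = 1 + c • t 1 := by
      rw [ht, ht, mul_one, hsq]
    have h2 := pow_apply t h1 (2 ^ (a + 1))
    have h3 : ∀ n : ℕ, (t ^ n) 1 = (z : E) ^ n := by
      intro n
      induction n with
      | zero => simp
      | succ n ih => rw [pow_succ', Module.End.mul_apply, ih, ht, pow_succ']
    rw [h3, ← Units.val_pow_eq_pow_val, ← hzo, pow_orderOf_eq_one, Units.val_one, ht, mul_one, hzo] at h2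
    set A := (ab c (2 ^ (a + 1))).1 with hA
    set B := (ab c (2 ^ (a + 1))).2 with hB
    have hA0 : A = 0 := by
      by_contra hne
      have h4 : (z : E) = algebraMap F E ((1 - B) / A) := by
        have h5 : algebraMap F E A * (z : E) = algebraMap F E A * (algebraMap F E ((1 - B) / A)) := by
          have h6 : A • (z : E) = 1 - B • (1 : E) := eq_sub_of_add_eq h2.symm
          rw [← Algebra.smul_def, h6, Algebra.smul_def, mul_one, ← map_mul, mul_div_cancel₀ _ hne, map_sub, map_one]
        exact mul_left_cancel₀ (by rw [Ne, map_eq_zero_iff _ (algebraMap F E).injective]; exact hne) h5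
      have h5 : z ^ (q - 1) = 1 := by
        apply Units.ext
        rw [Units.val_pow_eq_pow_val, h4, ← map_pow, Units.val_one]
        have h6 : ((1 - B) / A) ≠ 0 := by
          intro h7
          rw [h7, map_zero] at h4
          exact z.ne_zero h4
        rw [FiniteField.pow_card_sub_one_eq_one _ h6, map_one]
      have h6 := orderOf_dvd_of_pow_eq_one h5
      rw [hzo, hq1, pow_succ'] at h6
      have h7 := Nat.dvd_of_mul_dvd_mul_left (by norm_num) h6
      have h8 : 2 ∣ m2 := (dvd_pow_self 2 (by omega)).trans h7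
      omega
    have hB1 : B = 1 := by
      rw [hA0, zero_smul, zero_add] at h2
      apply (algebraMap F E).injective
      rw [map_one, Algebra.algebraMap_eq_smul_one]
      exact h2.symm
    exact Prod.ext hA0 hB1

end Cfsg.Agent.H594.VzQuad
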